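import Cfsg.Agent.Lib.Helper67.UPart.Defs

set_option autoImplicit false

namespace Cfsg.Agent.Lib.Helper67.UPart

/-- [A0] -/
theorem split_arith (a b b' r φ : ℕ) (hr : 0 < r) (hb : b' ≤ b) (hbb : b' ≡ b [MOD r])
    (hφ : φ ≡ a * b [MOD r]) (h1 : b' * (a % r) ≤ φ) (h2 : φ ≤ b' * a) :
    ∃ s w : ℕ, b = b' + s * r ∧ φ = b' * (a % r) + r * w ∧ w ≤ b' * (a / r) := by
  obtain ⟨s, hs⟩ := (Nat.modEq_iff_dvd' hb).1 hbb
  have h3 : b' * (a % r) ≡ φ [MOD r] := by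
    have h4 : b' * (a % r) ≡ b * a [MOD r] := Nat.ModEq.mul hbb (Nat.mod_modEq a r)
    rw [mul_comm b a] at h4
    exact h4.trans hφ.symm
  obtain ⟨w, hw⟩ := (Nat.modEq_iff_dvd' h1).1 h3
  refine ⟨s, w, by rw [mul_comm s r]; omega, by omega, ?_⟩
  have h5 : b' * a = b' * (a % r) + r * (b' * (a / r)) := by
    conv_lhs => rw [← Nat.mod_add_div a r]
    ring
  have h6 : r * w ≤ r * (b' * (a / r)) := by omega
  exact Nat.le_of_mul_le_mul_left h6 hr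

end Cfsg.Agent.Lib.Helper67.UPart
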