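import Cfsg.Agent.Lib.Helper67.UPart.Defs

set_option autoImplicit false

namespace Cfsg.Agent.Lib.Helper67.UPart

/-- [A1] -/
theorem not_cov_of_lt (a b r : ℕ) (ha : 2 ≤ a) (hb : 2 ≤ b) (har : a < r) (hr : r ≤ a * b) :
    ¬ Cov a b r := by
  intro h
  have h0 : a * b - r ≡ a * b [MOD r] := by
    have : a * b - r + r ≡ a * b - r [MOD r] := by
      unfold Nat.ModEq
      rw [Nat.add_mod_right]
    rw [Nat.sub_add_cancel hr] at this
    exact this.symm
  obtain ⟨b', hb', hbb, h1, h2⟩ := h (a * b - r) (by omega) h0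
  rw [Nat.mod_eq_of_lt har] at h1
  have h3 : b' * a + r = a * b := by omega
  have hlt : b' < b := by
    by_contra hge
    have : b' = b := by omega
    subst this
    rw [mul_comm] at h3
    omega
  have h4 : r ∣ b - b' := (Nat.modEq_iff_dvd' hb').1 hbb
  have h5 : r ≤ b - b' := Nat.le_of_dvd (by omega) h4
  have h6 : a * (b - b') = r := by
    rw [Nat.mul_sub]
    have : a * b' = b' * a := mul_comm _ _
    omega
  have h7 : 2 * (b - b') ≤ a * (b - b') := Nat.mul_le_mul_right _ ha
  omega

end Cfsg.Agent.Lib.Helper67.UPart
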