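import Cfsg.Agent.Lib.Helper67.UPart.Defs

set_option autoImplicit false

namespace Cfsg.Agent.Lib.Helper67.UPart

/-- [A2] -/
theorem cond_of_cov (a b r : ℕ) (ha : 2 ≤ a) (hb : 2 ≤ b) (hr : 2 ≤ r) (hra : r ≤ a)
    (h : Cov a b r) :
    a % r = 0 ∨ (b % r = 0 ∧ a % r = 1) ∨
      (a % r ≠ 0 ∧ b % r ≠ 0 ∧ (b % r) * (a % r) < r ∧
        (b < r ∨ (b % r + r) * (a % r) ≤ (b % r) * a + r)) := by
  unfold Cov at h
  by_cases hl : a % r = 0
  · exact Or.inl hl
  right
  have hab : 2 * r ≤ a * b := by
    calc 2 * r = r * 2 := by ring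
      _ ≤ a * b := Nat.mul_le_mul hra hb
  have hmod : (a * b) % r = ((a % r) * (b % r)) % r := Nat.mul_mod a b r
  have hla : a % r ≤ a := Nat.mod_le a r
  have hbdiv : r * (b / r) + b % r = b := Nat.div_add_mod b r
  generalize a % r = l at *
  generalize hkdef : b % r = k at *
  by_cases hk : k = 0
  · left
    refine ⟨hk, ?_⟩
    obtain ⟨b', hb'1, hb'2, hb'3, hb'4⟩ := h r (by omega) (by
      show r % r = (a * b) % r
      rw [hmod, hk, mul_zero, Nat.mod_self, Nat.zero_mod])
    have h1 : b' % r = 0 := by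
      have : b' % r = b % r := hb'2
      rw [this, hkdef, hk]
    have h2 : b' ≠ 0 := by
      rintro rfl
      rw [zero_mul] at hb'4
      omega
    have h3 : r ≤ b' := Nat.le_of_dvd (Nat.pos_of_ne_zero h2) (Nat.dvd_of_mod_eq_zero h1)
    have h4 : r * l ≤ r := le_trans (Nat.mul_le_mul_right l h3) hb'3
    have h5 : l ≤ 1 := by
      by_contra hcon
      have : r * 2 ≤ r * l := Nat.mul_le_mul_left r (by omega)
      omega
    omega
  · right
    have hrpos : 0 < r := by omega
    have hkl : k * l < r := by
      have hlt : (k * l) % r < r := Nat.mod_lt _ hrpos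
      obtain ⟨b', hb'1, hb'2, hb'3, hb'4⟩ := h ((k * l) % r) (by omega) (by
        show (k * l) % r % r = (a * b) % r
        rw [hmod, Nat.mod_mod, mul_comm])
      have h1 : b' % r = k := by
        have : b' % r = b % r := hb'2
        rw [this, hkdef]
      have h2 : k ≤ b' := by rw [← h1]; exact Nat.mod_le _ _
      have h3 : k * l ≤ b' * l := Nat.mul_le_mul_right l h2
      omega
    refine ⟨hl, hk, hkl, ?_⟩
    by_cases hbr : b < r
    · exact Or.inl hbr
    right
    have hbr' : r ≤ b := by omega
    have hq1 : 1 ≤ b / r := (Nat.one_le_div_iff hrpos).2 hbr'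
    have hkrb : k + r ≤ b := by
      have : r * 1 ≤ r * (b / r) := Nat.mul_le_mul_left r hq1
      omega
    have hl1 : 1 ≤ l := Nat.pos_of_ne_zero hl
    have hge : r ≤ (k + r) * l := by
      calc r ≤ k + r := by omega
        _ = (k + r) * 1 := by ring
        _ ≤ (k + r) * l := Nat.mul_le_mul_left _ hl1
    have hle : (k + r) * l ≤ a * b := by
      calc (k + r) * l ≤ b * a := Nat.mul_le_mul hkrb hla
        _ = a * b := by ring
    obtain ⟨b', hb'1, hb'2, hb'3, hb'4⟩ := h ((k + r) * l - r) (by omega) (by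
      show ((k + r) * l - r) % r = (a * b) % r
      have e1 : (k + r) * l - r = k * l + r * (l - 1) := by
        obtain ⟨m, rfl⟩ : ∃ m, l = m + 1 := ⟨l - 1, by omega⟩
        have : (k + r) * (m + 1) = k * (m + 1) + r * m + r := by ring
        rw [this]
        simp
      rw [e1, Nat.add_mul_mod_self_left, hmod, mul_comm])
    have h1 : b' % r = k := by
      have : b' % r = b % r := hb'2
      rw [this, hkdef]
    have h2 : b' < k + r := by
      by_contra hcon
      have : (k + r) * l ≤ b' * l := Nat.mul_le_mul_right l (by omega)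
      omega
    have h3 : b' = k := by
      have e := Nat.div_add_mod b' r
      rw [h1] at e
      have h4 : b' / r = 0 := by
        by_contra hcon
        have : r * 1 ≤ r * (b' / r) := Nat.mul_le_mul_left r (Nat.pos_of_ne_zero hcon)
        omega
      rw [h4] at e
      omega
    rw [h3] at hb'4
    omega

end Cfsg.Agent.Lib.Helper67.UPart
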