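import Cfsg.Agent.Lib.Helper67.UPart.Defs

set_option autoImplicit false

namespace Cfsg.Agent.Lib.Helper67.UPart

/-- [A3a] -/
theorem cov_of_mod_zero (a b r : ℕ) (h : a % r = 0) : Cov a b r := by
  intro φ h1 _
  refine ⟨b, le_rfl, Nat.ModEq.refl _, ?_, ?_⟩
  · rw [h, mul_zero]; exact Nat.zero_le _
  · rw [mul_comm]; omega

end Cfsg.Agent.Lib.Helper67.UPart
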