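import Cfsg.Agent.Lib.Helper67.UPart.Defs

set_option autoImplicit false

namespace Cfsg.Agent.Lib.Helper67.UPart

/-- [A3b] -/
theorem cov_of_mod_one (a b r : ℕ) (hr : 2 ≤ r) (hra : r ≤ a) (hk : b % r = 0) (hl : a % r = 1) :
    Cov a b r := by
  intro φ h1 h2
  rw [hl]
  obtain ⟨t, rfl⟩ : r ∣ b := Nat.dvd_of_mod_eq_zero hk
  -- φ ≡ 0
  have h3 : r ∣ φ := by
    have h4 : a * (r * t) ≡ 0 [MOD r] := by
      rw [Nat.modEq_zero_iff_dvd]
      exact ⟨a * t, by ring⟩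
    exact (Nat.modEq_zero_iff_dvd).1 (h2.trans h4)
  obtain ⟨u, rfl⟩ := h3
  have ha0 : 0 < a := by omega
  have hr0 : 0 < r := by omega
  -- the least `i` with `u ≤ i * a`
  have hex : ∃ i, u ≤ i * a := ⟨u, Nat.le_mul_of_pos_right u ha0⟩
  classical
  let i := Nat.find hex
  have hi : u ≤ i * a := Nat.find_spec hex
  have hut : u ≤ t * a := by
    have h5 : r * u ≤ r * (t * a) := by
      have : a * (r * t) = r * (t * a) := by ring
      omega
    exact Nat.le_of_mul_le_mul_left h5 hr0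
  have hit : i ≤ t := Nat.find_min' hex hut
  have hiu : i ≤ u := Nat.find_min' hex (Nat.le_mul_of_pos_right u ha0)
  refine ⟨r * i, Nat.mul_le_mul_left r hit, ?_, ?_, ?_⟩
  · have e1 : r * i ≡ 0 [MOD r] := (Nat.modEq_zero_iff_dvd).2 ⟨i, rfl⟩
    have e2 : r * t ≡ 0 [MOD r] := (Nat.modEq_zero_iff_dvd).2 ⟨t, rfl⟩
    exact e1.trans e2.symm
  · rw [mul_one]; exact Nat.mul_le_mul_left r hiu
  · rw [mul_assoc]; exact Nat.mul_le_mul_left r hi

end Cfsg.Agent.Lib.Helper67.UPart
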