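import Cfsg.Agent.Lib.Helper67.UPart.Defs

set_option autoImplicit false

namespace Cfsg.Agent.Lib.Helper67.UPart

/-- [A3c] -/
theorem cov_of_lt (a b r : ℕ) (hr : 2 ≤ r) (hkl : (b % r) * (a % r) < r) (hb : b < r) :
    Cov a b r := by
  intro φ h1 h2
  rw [Nat.mod_eq_of_lt hb] at hkl
  refine ⟨b, le_rfl, Nat.ModEq.refl _, ?_, ?_⟩
  · have h3 : φ % r = b * (a % r) := by
      have h4 : a * b ≡ b * (a % r) [MOD r] := by
        rw [mul_comm a b]
        exact Nat.ModEq.mul_left b (Nat.mod_modEq a r).symm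
      have h5 := h2.trans h4
      unfold Nat.ModEq at h5
      rw [h5, Nat.mod_eq_of_lt hkl]
    rw [← h3]
    exact Nat.mod_le _ _
  · rw [mul_comm]; omega

end Cfsg.Agent.Lib.Helper67.UPart
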