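import Cfsg.Agent.Lib.Helper67.UPart.Defs
set_option autoImplicit false
namespace Cfsg.Agent.Lib.Helper67.UPart

theorem le_of_mod_eq_A3d {x y r : ℕ} (h : x % r = y % r) (hlt : x < y + r) : x ≤ y := by
  by_contra hcon
  push Not at hcon
  have h1 : r ∣ x - y := (Nat.modEq_iff_dvd' hcon.le).mp h.symm
  have h2 := Nat.le_of_dvd (by omega) h1
  omega

theorem cov_of_gap (a b r : ℕ) (hr : 2 ≤ r) (hra : r ≤ a) (hkl : (b % r) * (a % r) < r)
    (hgap : (b % r + r) * (a % r) ≤ (b % r) * a + r) : Cov a b r := by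
  intro φ hφ hmod
  have hb : b % r + r * (b / r) = b := Nat.mod_add_div b r
  have hex : ∃ i, φ ≤ (b % r + r * i) * a := ⟨b / r, by rw [hb, mul_comm]; omega⟩
  classical
  have hspec := Nat.find_spec hex
  have hle : Nat.find hex ≤ b / r := Nat.find_min' hex (by rw [hb, mul_comm]; omega)
  have hmin : ∀ j, j < Nat.find hex → ¬ φ ≤ (b % r + r * j) * a := fun j hj => Nat.find_min hex hj
  generalize Nat.find hex = i at hspec hle hmin
  have hbm : (b % r + r * i) % r = b % r := by
    rw [Nat.add_mul_mod_self_left, Nat.mod_mod]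
  have hcong : ((b % r + r * i) * (a % r)) % r = φ % r := by
    have h1 : φ % r = (a * b) % r := hmod
    rw [h1, Nat.mul_mod, hbm, Nat.mod_mod, Nat.mul_mod a b, mul_comm]
  refine ⟨b % r + r * i, ?_, hbm, ?_, hspec⟩
  · calc b % r + r * i ≤ b % r + r * (b / r) := by
          exact Nat.add_le_add_left (Nat.mul_le_mul_left r hle) _
      _ = b := hb
  · apply le_of_mod_eq_A3d hcong
    rcases Nat.eq_zero_or_pos i with rfl | hi
    · rw [mul_zero, add_zero]
      omega
    · obtain ⟨j, rfl⟩ : ∃ j, i = j + 1 := ⟨i - 1, by omega⟩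
      have h0 := hmin j (Nat.lt_succ_self j)
      push Not at h0
      have hl : a % r ≤ a := Nat.mod_le a r
      have h1 : (b % r + r * (j + 1)) * (a % r) = (b % r + r) * (a % r) + r * j * (a % r) := by ring
      have h2 : r * j * (a % r) ≤ r * j * a := Nat.mul_le_mul_left _ hl
      have h3 : (b % r + r * j) * a = b % r * a + r * j * a := by ring
      rw [h1]
      rw [h3] at h0
      omega

end Cfsg.Agent.Lib.Helper67.UPart
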