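/-
helper67: row S3575 (permutations of prime order and partitions of a set of `a * b` points into `b`
parts of size `a`).  Shared vocabulary.
-/
import Mathlib

set_option autoImplicit false

namespace Cfsg.Agent.Lib.Helper67.UPart

/-- `σ` permutes the parts of some partition of `X` into `b` parts of size `a` -/
def Fixes {X : Type*} (σ : Equiv.Perm X) (a b : ℕ) : Prop :=
  ∃ f : X → Fin b, (∀ j : Fin b, Nat.card {x : X // f x = j} = a) ∧
    ∃ π : Equiv.Perm (Fin b), ∀ x : X, f (σ x) = π (f x)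

/-- the number of fixed points -/
noncomputable def nfix {X : Type*} (σ : Equiv.Perm X) : ℕ := Nat.card {x : X // σ x = x}

/-- the arithmetic covering condition -/
def Cov (a b r : ℕ) : Prop :=
  ∀ φ : ℕ, φ + r ≤ a * b → φ ≡ a * b [MOD r] →
    ∃ b' : ℕ, b' ≤ b ∧ b' ≡ b [MOD r] ∧ b' * (a % r) ≤ φ ∧ φ ≤ b' * a

end Cfsg.Agent.Lib.Helper67.UPart
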