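import Cfsg.Agent.Lib.Helper67.UPart.Defs

set_option autoImplicit false

namespace Cfsg.Agent.Lib.Helper67.UPart

theorem succ_dvd_choose_FD (a b : ℕ) (ha : 0 < a) : (b + 1) ∣ Nat.choose (a * b + a) a := by
  obtain ⟨c, rfl⟩ : ∃ c, a = c + 1 := ⟨a - 1, by omega⟩
  have h := Nat.add_one_mul_choose_eq ((c + 1) * b + c) c
  -- ((c+1)*b + c + 1) * choose ((c+1)*b+c) c = choose ((c+1)*b+c+1) (c+1) * (c+1)
  have h2 : (c + 1) * b + c + 1 = (c + 1) * (b + 1) := by ring
  have h3 : (c + 1) * b + (c + 1) = (c + 1) * b + c + 1 := by ring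
  rw [h3]
  rw [h2] at h ⊢
  have h4 : (c + 1) * ((b + 1) * Nat.choose ((c + 1) * b + c) c) =
      (c + 1) * Nat.choose ((c + 1) * (b + 1)) (c + 1) := by
    rw [← mul_assoc, h, mul_comm]
  have h5 := Nat.eq_of_mul_eq_mul_left (Nat.succ_pos c) h4
  exact ⟨_, h5.symm⟩

/-- [FD] -/
theorem factorial_pow_mul_dvd (a b : ℕ) (ha : 0 < a) :
    a.factorial ^ b * b.factorial ∣ (a * b).factorial := by
  induction b with
  | zero => simp
  | succ b ih =>
    have h1 := Nat.add_choose_mul_factorial_mul_factorial (a * b) a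
    -- choose (a*b + a) (a*b) * (a*b)! * a! = (a*b+a)!
    have h2 : a * (b + 1) = a * b + a := by ring
    rw [h2, ← h1]
    obtain ⟨c, hc⟩ := succ_dvd_choose_FD a b ha
    rw [hc, pow_succ, Nat.factorial_succ]
    obtain ⟨d, hd⟩ := ih
    rw [hd]
    exact ⟨c * d, by ring⟩

end Cfsg.Agent.Lib.Helper67.UPart
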