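import Cfsg.Agent.Lib.Helper67.UPart.Defs

set_option autoImplicit false

namespace Cfsg.Agent.Lib.Helper67.UPart

theorem fixes_permCongr {X X' : Type*} (e : X ≃ X') (σ : Equiv.Perm X) (a b : ℕ)
    (h : Fixes σ a b) : Fixes (e.permCongr σ) a b := by
  obtain ⟨f, hf, π, hπ⟩ := h
  refine ⟨fun x => f (e.symm x), fun j => ?_, π, fun x => ?_⟩
  · rw [← hf j]
    apply Nat.card_congr
    exact (e.symm.subtypeEquiv (fun x => Iff.rfl))
  · simp only [Equiv.permCongr_apply, Equiv.symm_apply_apply, hπ]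

end Cfsg.Agent.Lib.Helper67.UPart
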