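import Cfsg.Agent.Lib.Helper67.UPart.Defs

set_option autoImplicit false

namespace Cfsg.Agent.Lib.Helper67.UPart

theorem nfix_permCongr {X X' : Type*} (e : X ≃ X') (σ : Equiv.Perm X) :
    nfix (e.permCongr σ) = nfix σ := by
  unfold nfix
  apply Nat.card_congr
  apply e.symm.subtypeEquiv
  intro x
  rw [Equiv.permCongr_apply, ← Equiv.eq_symm_apply]

end Cfsg.Agent.Lib.Helper67.UPart
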