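import Cfsg.Agent.Lib.Helper67.UPart.Defs

set_option autoImplicit false

namespace Cfsg.Agent.Lib.Helper67.UPart

theorem nfix_eq_U9 {X : Type*} [Fintype X] [DecidableEq X] (σ : Equiv.Perm X) :
    nfix σ = σ.supportᶜ.card := by
  unfold nfix
  rw [Nat.card_eq_fintype_card, Fintype.card_subtype]
  congr 1
  ext x
  simp [Equiv.Perm.mem_support]

theorem nfix_modEq {X : Type*} [Fintype X] {r : ℕ} (hr : r.Prime) {σ : Equiv.Perm X}
    (hσ : σ ^ r = 1) : nfix σ ≡ Fintype.card X [MOD r] := by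
  classical
  haveI : Fact r.Prime := ⟨hr⟩
  rw [nfix_eq_U9]
  exact Equiv.Perm.card_compl_support_modEq (p := r) (n := 1) (by rwa [pow_one])

end Cfsg.Agent.Lib.Helper67.UPart
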