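import Cfsg.Agent.Lib.Helper67.UPart.Defs
import Cfsg.Agent.Lib.Helper67.UPart.U9

set_option autoImplicit false

namespace Cfsg.Agent.Lib.Helper67.UPart

theorem cycleType_eq_U3 {X : Type*} [Fintype X] [DecidableEq X] {r : ℕ} (hr : r.Prime)
    {σ : Equiv.Perm X} (hσ : σ ^ r = 1) :
    σ.cycleType = Multiset.replicate ((Fintype.card X - nfix σ) / r) r := by
  have h1 : ∀ n ∈ σ.cycleType, n = r := by
    intro n hn
    have h2 := (Equiv.Perm.dvd_of_mem_cycleType hn).trans (orderOf_dvd_of_pow_eq_one hσ)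
    have h3 := Equiv.Perm.two_le_of_mem_cycleType hn
    rcases (Nat.dvd_prime hr).1 h2 with h | h
    · omega
    · exact h
  have h2 := Multiset.eq_replicate_card.2 h1
  have h3 : σ.cycleType.sum = Fintype.card X - nfix σ := by
    rw [Equiv.Perm.sum_cycleType, nfix_eq_U9, Finset.card_compl]
    have := Finset.card_le_univ σ.support
    omega
  rw [h2, Multiset.sum_replicate, smul_eq_mul] at h3
  rw [← h3, Nat.mul_div_cancel _ hr.pos]
  exact h2

theorem isConj_of_nfix_eq {X : Type*} [Fintype X] [DecidableEq X] {r : ℕ} (hr : r.Prime)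
    {σ τ : Equiv.Perm X} (hσ : σ ^ r = 1) (hτ : τ ^ r = 1) (h : nfix σ = nfix τ) :
    IsConj σ τ := by
  rw [Equiv.Perm.isConj_iff_cycleType_eq, cycleType_eq_U3 hr hσ, cycleType_eq_U3 hr hτ, h]

end Cfsg.Agent.Lib.Helper67.UPart
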