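import Cfsg.Agent.Lib.Helper67.UPart.Defs

set_option autoImplicit false

namespace Cfsg.Agent.Lib.Helper67.UPart

theorem fixes_of_map {X Y : Type*} [Fintype Y] (σ : Equiv.Perm X) (a b : ℕ)
    (hY : Fintype.card Y = b) (f : X → Y) (hf : ∀ y : Y, Nat.card {x : X // f x = y} = a)
    (π : Equiv.Perm Y) (h : ∀ x, f (σ x) = π (f x)) : Fixes σ a b := by
  let e := Fintype.equivFinOfCardEq hY
  refine ⟨fun x => e (f x), fun j => ?_, e.permCongr π, fun x => ?_⟩
  · rw [← hf (e.symm j)]
    apply Nat.card_congr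
    apply Equiv.subtypeEquivRight
    intro x
    exact (Equiv.eq_symm_apply e).symm
  · simp only [Equiv.permCongr_apply, Equiv.symm_apply_apply, h]

end Cfsg.Agent.Lib.Helper67.UPart
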