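import Cfsg.Agent.Lib.Helper67.UPart.Defs
set_option autoImplicit false
namespace Cfsg.Agent.Lib.Helper67.UPart

theorem shear_pow_apply_U4a {A B : Type*} (g : A → Equiv.Perm B) (k : ℕ) (x : A × B) :
    ((Equiv.prodShear (Equiv.refl A) g : Equiv.Perm (A × B)) ^ k) x = (x.1, (g x.1 ^ k) x.2) := by
  induction k generalizing x with
  | zero => simp
  | succ k ih =>
    rw [pow_succ, Equiv.Perm.mul_apply, ih, pow_succ, Equiv.Perm.mul_apply]
    rfl

theorem shear_pow_U4a {A B : Type*} (g : A → Equiv.Perm B) (r : ℕ) (h : ∀ a, g a ^ r = 1) :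
    (Equiv.prodShear (Equiv.refl A) g : Equiv.Perm (A × B)) ^ r = 1 := by
  ext x : 1
  rw [shear_pow_apply_U4a, h]
  rfl

theorem sum_pow_apply_U4a {A B : Type*} (σ : Equiv.Perm A) (τ : Equiv.Perm B) (k : ℕ) (x : A ⊕ B) :
    ((Equiv.sumCongr σ τ : Equiv.Perm (A ⊕ B)) ^ k) x = Sum.map (σ ^ k) (τ ^ k) x := by
  induction k generalizing x with
  | zero => rcases x with x | x <;> simp
  | succ k ih =>
    rw [pow_succ, Equiv.Perm.mul_apply, ih, pow_succ, pow_succ]
    rcases x with x | x <;> rfl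

theorem sum_pow_U4a {A B : Type*} (σ : Equiv.Perm A) (τ : Equiv.Perm B) (r : ℕ) (h1 : σ ^ r = 1)
    (h2 : τ ^ r = 1) : (Equiv.sumCongr σ τ : Equiv.Perm (A ⊕ B)) ^ r = 1 := by
  ext x : 1
  rw [sum_pow_apply_U4a, h1, h2]
  rcases x with x | x <;> rfl

theorem nfix_shear_U4a {A B : Type*} [Fintype A] [Finite B] (g : A → Equiv.Perm B) :
    nfix (Equiv.prodShear (Equiv.refl A) g : Equiv.Perm (A × B)) = ∑ a, nfix (g a) := by
  unfold nfix
  rw [← Nat.card_sigma]
  refine Nat.card_congr ((Equiv.subtypeEquivRight (fun x => ?_)).trans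
    (Equiv.subtypeProdEquivSigmaSubtype (fun a b => g a b = b)))
  constructor
  · intro h
    exact congrArg Prod.snd h
  · intro h
    exact Prod.ext rfl h

theorem nfix_sum_U4a {A B : Type*} [Finite A] [Finite B] (σ : Equiv.Perm A) (τ : Equiv.Perm B) :
    nfix (Equiv.sumCongr σ τ : Equiv.Perm (A ⊕ B)) = nfix σ + nfix τ := by
  unfold nfix
  rw [← Nat.card_sum]
  refine Nat.card_congr ((Equiv.subtypeSum).trans (Equiv.sumCongr
    (Equiv.subtypeEquivRight (fun x => ?_)) (Equiv.subtypeEquivRight (fun x => ?_))))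
  · exact ⟨fun h => Sum.inl.inj h, fun h => congrArg Sum.inl h⟩
  · exact ⟨fun h => Sum.inr.inj h, fun h => congrArg Sum.inr h⟩

theorem nfix_one_U4a (A : Type*) [Fintype A] : nfix (1 : Equiv.Perm A) = Fintype.card A := by
  unfold nfix
  rw [← Nat.card_eq_fintype_card]
  exact Nat.card_congr (Equiv.subtypeUnivEquiv (fun x => rfl))

theorem nfix_addRight_U4a (r : ℕ) (hr : 2 ≤ r) [NeZero r] :
    nfix (Equiv.addRight (1 : Fin r)) = 0 := by
  unfold nfix
  rw [Nat.card_eq_zero]
  left
  constructor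
  rintro ⟨ρ, hρ⟩
  have h1 : ρ + 1 = ρ := hρ
  have h2 : (1 : Fin r) = 0 := by simpa using h1
  have h3 := congrArg Fin.val h2
  rw [Fin.val_one', Fin.val_zero, Nat.mod_eq_of_lt (by omega)] at h3
  exact one_ne_zero h3

theorem addRight_pow_U4a (r : ℕ) [NeZero r] : (Equiv.addRight (1 : Fin r)) ^ r = 1 := by
  have : r • (1 : Fin r) = 0 := by
    have := card_nsmul_eq_zero (G := Fin r) (x := 1)
    rwa [Fintype.card_fin] at this
  simp [this]

theorem count_U4a (N w r : ℕ) (hw : w ≤ N) :
    ∑ n : Fin N, (if n.val < w then r else 0) = r * w := by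
  rw [Fin.sum_univ_eq_sum_range (fun i => if i < w then r else 0) N, ← Finset.sum_filter]
  have : (Finset.range N).filter (fun i => i < w) = Finset.range w := by
    ext i
    simp only [Finset.mem_filter, Finset.mem_range]
    omega
  rw [this, Finset.sum_const, Finset.card_range, smul_eq_mul, mul_comm]

theorem exists_model_inv (r a b' w : ℕ) (hr : 2 ≤ r) (hw : w ≤ b' * (a / r)) :
    ∃ τ : Equiv.Perm (Fin b' × (Fin (a % r) ⊕ (Fin (a / r) × Fin r))),
      τ ^ r = 1 ∧ nfix τ = b' * (a % r) + r * w ∧ ∀ x, (τ x).1 = x.1 := by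
  have : NeZero r := ⟨by omega⟩
  let g : Fin b' × Fin (a / r) → Equiv.Perm (Fin r) :=
    fun i => if (finProdFinEquiv i).val < w then 1 else Equiv.addRight 1
  have hg : ∀ i, g i ^ r = 1 := by
    intro i
    by_cases h : (finProdFinEquiv i).val < w
    · simp only [g, h, if_true, one_pow]
    · simp only [g, h, if_false]
      exact addRight_pow_U4a r
  have hgn : ∀ i, nfix (g i) = if (finProdFinEquiv i).val < w then r else 0 := by
    intro i
    by_cases h : (finProdFinEquiv i).val < w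
    · simp only [g, h, if_true]
      rw [nfix_one_U4a, Fintype.card_fin]
    · simp only [g, h, if_false]
      exact nfix_addRight_U4a r hr
  let G : Fin b' → Equiv.Perm (Fin (a % r) ⊕ (Fin (a / r) × Fin r)) :=
    fun j => Equiv.sumCongr 1 (Equiv.prodShear (Equiv.refl _) (fun u => g (j, u)))
  refine ⟨Equiv.prodShear (Equiv.refl _) G, ?_, ?_, fun x => rfl⟩
  · apply shear_pow_U4a
    intro j
    exact sum_pow_U4a _ _ r (one_pow r) (shear_pow_U4a _ r (fun u => hg (j, u)))
  · rw [nfix_shear_U4a]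
    have h1 : ∀ j, nfix (G j) =
        a % r + ∑ u : Fin (a / r), (if (finProdFinEquiv (j, u)).val < w then r else 0) := by
      intro j
      simp only [G]
      rw [nfix_sum_U4a, nfix_one_U4a, Fintype.card_fin, nfix_shear_U4a]
      simp only [hgn]
    simp only [h1]
    rw [Finset.sum_add_distrib, Finset.sum_const, Finset.card_univ, Fintype.card_fin, smul_eq_mul,
      ← Fintype.sum_prod_type' (fun (j : Fin b') (u : Fin (a / r)) =>
        if (finProdFinEquiv (j, u)).val < w then r else 0),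
      ← count_U4a (b' * (a / r)) w r hw]
    congr 1
    exact Fintype.sum_equiv finProdFinEquiv _ _ (fun x => rfl)

end Cfsg.Agent.Lib.Helper67.UPart
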