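import Cfsg.Agent.Lib.Helper67.UPart.Defs

set_option autoImplicit false

namespace Cfsg.Agent.Lib.Helper67.UPart

/-- [U4b] -/
theorem exists_model_mov (r a s : ℕ) (hr : 2 ≤ r) :
    ∃ (τ : Equiv.Perm ((Fin s × Fin r) × Fin a)) (π : Equiv.Perm (Fin s × Fin r)),
      τ ^ r = 1 ∧ nfix τ = 0 ∧ ∀ x, (τ x).1 = π x.1 := by
  have : NeZero r := ⟨by omega⟩
  let π : Equiv.Perm (Fin s × Fin r) := Equiv.prodCongr (Equiv.refl _) (Equiv.addRight 1)
  let τ : Equiv.Perm ((Fin s × Fin r) × Fin a) := Equiv.prodCongr π (Equiv.refl _)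
  have hτ : ∀ x, τ x = ((x.1.1, x.1.2 + 1), x.2) := fun x => rfl
  have hpow : ∀ k : ℕ, ∀ x, (τ ^ k) x = ((x.1.1, x.1.2 + k • (1 : Fin r)), x.2) := by
    intro k
    induction k with
    | zero => intro x; simp
    | succ k ih =>
      intro x
      rw [pow_succ', Equiv.Perm.mul_apply, ih, hτ, succ_nsmul, add_assoc]
  have h1 : (1 : Fin r) ≠ 0 := by
    intro h
    have h2 := congrArg Fin.val h
    rw [Fin.val_one', Nat.mod_eq_of_lt (by omega)] at h2
    simp at h2
  refine ⟨τ, π, ?_, ?_, fun x => rfl⟩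
  · apply Equiv.ext
    intro x
    have h3 : r • (1 : Fin r) = 0 := by
      have h4 := card_nsmul_eq_zero (x := (1 : Fin r))
      rwa [Fintype.card_fin] at h4
    rw [hpow, h3]
    simp
  · unfold nfix
    rw [Nat.card_eq_zero]
    left
    constructor
    rintro ⟨x, hx⟩
    rw [hτ] at hx
    have h2 : x.1.2 + 1 = x.1.2 := congrArg (fun y => y.1.2) hx
    exact h1 (add_eq_left.mp h2)

end Cfsg.Agent.Lib.Helper67.UPart
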