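import Cfsg.Agent.Lib.Helper67.UPart.Defs

set_option autoImplicit false

namespace Cfsg.Agent.Lib.Helper67.UPart

/-- [U4c] -/
theorem nfix_sumCongr {X Y : Type*} [Finite X] [Finite Y] (σ : Equiv.Perm X) (τ : Equiv.Perm Y) :
    nfix (Equiv.sumCongr σ τ : Equiv.Perm (X ⊕ Y)) = nfix σ + nfix τ := by
  unfold nfix
  rw [← Nat.card_sum]
  apply Nat.card_congr
  exact
    { toFun := fun z => match z with
        | ⟨Sum.inl x, h⟩ => Sum.inl ⟨x, by simpa using h⟩
        | ⟨Sum.inr y, h⟩ => Sum.inr ⟨y, by simpa using h⟩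
      invFun := fun z => match z with
        | Sum.inl x => ⟨Sum.inl x.1, by simp [x.2]⟩
        | Sum.inr y => ⟨Sum.inr y.1, by simp [y.2]⟩
      left_inv := by rintro ⟨x | y, h⟩ <;> rfl
      right_inv := by rintro (x | y) <;> rfl }

end Cfsg.Agent.Lib.Helper67.UPart
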