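import Cfsg.Agent.Lib.Helper67.UPart.Defs
import Cfsg.Agent.Lib.Helper67.UPart.U1
import Cfsg.Agent.Lib.Helper67.UPart.U4a
import Cfsg.Agent.Lib.Helper67.UPart.U4b
import Cfsg.Agent.Lib.Helper67.UPart.U4c

set_option autoImplicit false

namespace Cfsg.Agent.Lib.Helper67.UPart

theorem card_fib_inl_U4 {J A B C : Type*} (j : J) :
    Nat.card {x : (J × A) ⊕ (B × C) // Sum.map Prod.fst Prod.fst x = (Sum.inl j : J ⊕ B)} =
      Nat.card A := by
  apply Nat.card_congr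
  refine ⟨fun x => match x with
      | ⟨Sum.inl p, _⟩ => p.2
      | ⟨Sum.inr p, h⟩ => absurd h (by simp), fun t => ⟨Sum.inl (j, t), rfl⟩, ?_, fun t => rfl⟩
  rintro ⟨(⟨j', t⟩ | p), h⟩
  · simp only [Sum.map_inl, Sum.inl.injEq] at h
    subst h
    rfl
  · simp at h

theorem card_fib_inr_U4 {J A B C : Type*} (y : B) :
    Nat.card {x : (J × A) ⊕ (B × C) // Sum.map Prod.fst Prod.fst x = (Sum.inr y : J ⊕ B)} =
      Nat.card C := by
  apply Nat.card_congr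
  refine ⟨fun x => match x with
      | ⟨Sum.inr p, _⟩ => p.2
      | ⟨Sum.inl p, h⟩ => absurd h (by simp), fun t => ⟨Sum.inr (y, t), rfl⟩, ?_, fun t => rfl⟩
  rintro ⟨(p | ⟨y', t⟩), h⟩
  · simp at h
  · simp only [Sum.map_inr, Sum.inr.injEq] at h
    subst h
    rfl

/-- [U4] -/
theorem exists_model (r a b' s w : ℕ) (hr : 2 ≤ r) (hw : w ≤ b' * (a / r)) :
    ∃ τ : Equiv.Perm ((Fin b' × (Fin (a % r) ⊕ (Fin (a / r) × Fin r))) ⊕
        ((Fin s × Fin r) × Fin a)),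
      τ ^ r = 1 ∧ nfix τ = b' * (a % r) + r * w ∧ Fixes τ a (b' + s * r) := by
  obtain ⟨τ₁, h1, h2, h3⟩ := exists_model_inv r a b' w hr hw
  obtain ⟨τ₂, π₂, g1, g2, g3⟩ := exists_model_mov r a s hr
  refine ⟨Equiv.sumCongr τ₁ τ₂, ?_, ?_, ?_⟩
  · show (Equiv.Perm.sumCongrHom _ _ (τ₁, τ₂)) ^ r = 1
    rw [← map_pow, Prod.pow_mk, h1, g1]
    exact map_one _
  · rw [nfix_sumCongr, h2, g2, add_zero]
  · refine fixes_of_map _ a (b' + s * r) (Y := Fin b' ⊕ (Fin s × Fin r)) (by simp)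
      (Sum.map Prod.fst Prod.fst) ?_ (Equiv.sumCongr 1 π₂) ?_
    · rintro (j | y)
      · rw [card_fib_inl_U4]
        simp only [Nat.card_eq_fintype_card, Fintype.card_sum, Fintype.card_prod, Fintype.card_fin]
        rw [mul_comm]
        exact Nat.mod_add_div a r
      · rw [card_fib_inr_U4]
        simp
    · rintro (x | x)
      · show (Sum.inl (τ₁ x).1 : Fin b' ⊕ (Fin s × Fin r)) = Sum.inl x.1
        rw [h3]
      · show (Sum.inr (τ₂ x).1 : Fin b' ⊕ (Fin s × Fin r)) = Sum.inr (π₂ x.1)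
        rw [g3]

end Cfsg.Agent.Lib.Helper67.UPart
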