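import Cfsg.Agent.Lib.Helper67.UPart.Defs
import Cfsg.Agent.Lib.Helper67.UPart.U9
set_option autoImplicit false
namespace Cfsg.Agent.Lib.Helper67.UPart

theorem nfix_eq_card_filter_U5 {X : Type*} [Fintype X] [DecidableEq X] (σ : Equiv.Perm X) :
    nfix σ = (Finset.univ.filter fun x => σ x = x).card := by
  unfold nfix
  rw [Nat.card_eq_fintype_card, Fintype.card_subtype]

/-- the fixed points in an invariant fibre -/
theorem fibre_bounds_U5 {X : Type*} [Fintype X] [DecidableEq X] {r : ℕ} (hr : r.Prime)
    {σ : Equiv.Perm X} (hσ : σ ^ r = 1) {a : ℕ} (p : X → Prop) [DecidablePred p]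
    (hp : ∀ x, p (σ x) ↔ p x) (hcard : Nat.card {x : X // p x} = a) :
    a % r ≤ (Finset.univ.filter fun x => p x ∧ σ x = x).card ∧
      (Finset.univ.filter fun x => p x ∧ σ x = x).card ≤ a := by
  have h1 : (σ.subtypePerm hp) ^ r = 1 := by
    rw [Equiv.Perm.subtypePerm_pow]
    ext x
    simp [hσ]
  have h2 := nfix_modEq hr h1
  have h3 : nfix (σ.subtypePerm hp) = (Finset.univ.filter fun x => p x ∧ σ x = x).card := by
    unfold nfix
    rw [← Fintype.card_subtype, ← Nat.card_eq_fintype_card]
    refine Nat.card_congr ((Equiv.subtypeEquivRight (fun y => ?_)).trans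
      (Equiv.subtypeSubtypeEquivSubtypeInter p (fun x => σ x = x)))
    rw [Equiv.Perm.subtypePerm_apply, Subtype.ext_iff]
  rw [Nat.card_eq_fintype_card] at hcard
  rw [h3, hcard] at h2
  constructor
  · have h4 : (Finset.univ.filter fun x => p x ∧ σ x = x).card % r = a % r := h2
    rw [← h4]
    exact Nat.mod_le _ _
  · rw [← hcard, Fintype.card_subtype]
    apply Finset.card_le_card
    intro x hx
    simp only [Finset.mem_filter, Finset.mem_univ, true_and] at hx ⊢
    exact hx.1

theorem cond_of_fixes {X : Type*} [Fintype X] {r : ℕ} (hr : r.Prime) {σ : Equiv.Perm X}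
    (hσ : σ ^ r = 1) {a b : ℕ} (ha : 0 < a) (h : Fixes σ a b) :
    ∃ b' : ℕ, b' ≤ b ∧ b' ≡ b [MOD r] ∧ b' * (a % r) ≤ nfix σ ∧ nfix σ ≤ b' * a := by
  classical
  obtain ⟨f, hf, π, hπ⟩ := h
  have hsurj : Function.Surjective f := by
    intro j
    have h1 : 0 < Nat.card {x : X // f x = j} := by rw [hf j]; exact ha
    obtain ⟨x⟩ := (Nat.card_pos_iff.mp h1).1
    exact ⟨x.1, x.2⟩
  have hpow : ∀ (k : ℕ) (x : X), (π ^ k) (f x) = f ((σ ^ k) x) := by
    intro k
    induction k with
    | zero => intro x; simp
    | succ k ih =>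
      intro x
      rw [pow_succ, pow_succ, Equiv.Perm.mul_apply, Equiv.Perm.mul_apply, ← hπ, ih]
  have hπr : π ^ r = 1 := by
    ext j
    obtain ⟨x, rfl⟩ := hsurj j
    rw [hpow, hσ]
    simp
  have hmod := nfix_modEq hr hπr
  rw [Fintype.card_fin] at hmod
  have hle : nfix π ≤ b := by
    rw [nfix_eq_card_filter_U5]
    calc _ ≤ (Finset.univ : Finset (Fin b)).card := Finset.card_le_card (Finset.filter_subset _ _)
      _ = b := by simp
  refine ⟨nfix π, hle, hmod, ?_, ?_⟩
  all_goals
    rw [nfix_eq_card_filter_U5 σ, nfix_eq_card_filter_U5 π,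
      Finset.card_eq_sum_card_fiberwise (f := f) (t := Finset.univ.filter fun j => π j = j)
        (by
          intro x hx
          simp only [Finset.coe_filter, Finset.mem_univ, true_and, Set.mem_ofPred_eq] at hx ⊢
          rw [← hπ, hx])]
  · rw [← smul_eq_mul]
    apply Finset.card_nsmul_le_sum
    intro j hj
    simp only [Finset.mem_filter, Finset.mem_univ, true_and] at hj
    have hp : ∀ x, f (σ x) = j ↔ f x = j := by
      intro x
      rw [hπ]
      constructor
      · intro h1
        apply π.injective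
        rw [h1, hj]
      · intro h1
        rw [h1, hj]
    have := (fibre_bounds_U5 hr hσ (fun x => f x = j) hp (hf j)).1
    refine this.trans (le_of_eq ?_)
    congr 1
    ext x
    simp [and_comm]
  · rw [← smul_eq_mul]
    apply Finset.sum_le_card_nsmul
    intro j hj
    simp only [Finset.mem_filter, Finset.mem_univ, true_and] at hj
    have hp : ∀ x, f (σ x) = j ↔ f x = j := by
      intro x
      rw [hπ]
      constructor
      · intro h1
        apply π.injective
        rw [h1, hj]
      · intro h1
        rw [h1, hj]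
    have := (fibre_bounds_U5 hr hσ (fun x => f x = j) hp (hf j)).2
    refine (le_of_eq ?_).trans this
    congr 1
    ext x
    simp [and_comm]

end Cfsg.Agent.Lib.Helper67.UPart
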