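import Cfsg.Agent.Lib.Helper67.UPart.Defs
import Cfsg.Agent.Lib.Helper67.UPart.U2b
import Cfsg.Agent.Lib.Helper67.UPart.U4b
import Cfsg.Agent.Lib.Helper67.UPart.U4c

set_option autoImplicit false

namespace Cfsg.Agent.Lib.Helper67.UPart

theorem nfix_one_U6 (X : Type*) : nfix (1 : Equiv.Perm X) = Nat.card X :=
  Nat.card_congr (Equiv.subtypeUnivEquiv (fun _ => rfl))

/-- [U6] -/
theorem exists_perm_nfix (N r φ : ℕ) (hr : r.Prime) (h1 : φ + r ≤ N) (h2 : φ ≡ N [MOD r]) :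
    ∃ σ : Equiv.Perm (Fin N), orderOf σ = r ∧ nfix σ = φ := by
  have : Fact r.Prime := ⟨hr⟩
  obtain ⟨c, hc⟩ : ∃ c, N = φ + r * c := by
    have h3 : r ∣ N - φ := (Nat.modEq_iff_dvd' (by omega)).1 h2
    obtain ⟨c, hc⟩ := h3
    exact ⟨c, by omega⟩
  obtain ⟨τ, π, hτ1, hτ2, -⟩ := exists_model_mov r 1 c hr.two_le
  obtain ⟨σ0, hσdef⟩ : ∃ σ0 : Equiv.Perm (Fin φ ⊕ ((Fin c × Fin r) × Fin 1)),
      σ0 = Equiv.Perm.sumCongrHom _ _ (1, τ) := ⟨_, rfl⟩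
  have hσ0 : σ0 ^ r = 1 := by
    rw [hσdef, ← map_pow, Prod.pow_mk, one_pow, hτ1]
    exact map_one _
  have hnf : nfix σ0 = φ := by
    have h3 := nfix_sumCongr (1 : Equiv.Perm (Fin φ)) τ
    rw [nfix_one_U6, hτ2, add_zero, Nat.card_fin] at h3
    rw [hσdef]
    exact h3
  have hcard : Fintype.card (Fin φ ⊕ ((Fin c × Fin r) × Fin 1)) = N := by
    simp [hc]
    ring
  have hne : σ0 ≠ 1 := by
    intro h
    rw [h, nfix_one_U6, Nat.card_eq_fintype_card, hcard] at hnf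
    have := hr.two_le
    omega
  have hord : orderOf σ0 = r := orderOf_eq_prime hσ0 hne
  refine ⟨Equiv.permCongrHom (Fintype.equivFinOfCardEq hcard) σ0, ?_, ?_⟩
  · rw [MulEquiv.orderOf_eq, hord]
  · exact (nfix_permCongr (Fintype.equivFinOfCardEq hcard) σ0).trans hnf

end Cfsg.Agent.Lib.Helper67.UPart
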