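import Cfsg.Agent.Lib.Helper67.UPart.U1
import Cfsg.Agent.Lib.Helper67.UPart.U2
import Cfsg.Agent.Lib.Helper67.UPart.U2b
import Cfsg.Agent.Lib.Helper67.UPart.U3
import Cfsg.Agent.Lib.Helper67.UPart.U9
import Cfsg.Agent.Lib.Helper67.UPart.U4a
import Cfsg.Agent.Lib.Helper67.UPart.U4b
import Cfsg.Agent.Lib.Helper67.UPart.U4c
import Cfsg.Agent.Lib.Helper67.UPart.U4
import Cfsg.Agent.Lib.Helper67.UPart.U6
import Cfsg.Agent.Lib.Helper67.UPart.U5
import Cfsg.Agent.Lib.Helper67.UPart.A0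
import Cfsg.Agent.Lib.Helper67.UPart.A1
import Cfsg.Agent.Lib.Helper67.UPart.A2
import Cfsg.Agent.Lib.Helper67.UPart.A3a
import Cfsg.Agent.Lib.Helper67.UPart.A3b
import Cfsg.Agent.Lib.Helper67.UPart.A3c
import Cfsg.Agent.Lib.Helper67.UPart.A3d
import Cfsg.Agent.Lib.Helper67.UPart.FD

set_option autoImplicit false

namespace Cfsg.Agent.Lib.Helper67.UPart

/-- conjugate permutations fix the same kind of partitions -/
theorem fixes_of_isConj {X : Type*} {σ τ : Equiv.Perm X} (h : IsConj τ σ) {a b : ℕ}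
    (hτ : Fixes τ a b) : Fixes σ a b := by
  obtain ⟨g, hg⟩ := isConj_iff.1 h
  have h1 := fixes_permCongr (g : X ≃ X) τ a b hτ
  have h2 : (g : X ≃ X).permCongr τ = σ := by
    rw [← hg]
    ext x
    simp [Equiv.permCongr_apply]
  rwa [h2] at h1

/-- **sufficiency for one permutation** -/
theorem fixes_of_cond {a b r : ℕ} (hr : r.Prime) {σ : Equiv.Perm (Fin (a * b))} (hσ : σ ^ r = 1)
    {b' : ℕ} (hb : b' ≤ b) (hbb : b' ≡ b [MOD r]) (h1 : b' * (a % r) ≤ nfix σ)
    (h2 : nfix σ ≤ b' * a) : Fixes σ a b := by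
  have hφ : nfix σ ≡ a * b [MOD r] := by
    have := nfix_modEq hr hσ
    rwa [Fintype.card_fin] at this
  obtain ⟨s, w, hs, hw, hw2⟩ := split_arith a b b' r (nfix σ) hr.pos hb hbb hφ h1 h2
  obtain ⟨τ, hτ, hτn, hτF⟩ := exists_model r a b' s w hr.two_le hw2
  have hcard : Fintype.card ((Fin b' × (Fin (a % r) ⊕ (Fin (a / r) × Fin r))) ⊕
      ((Fin s × Fin r) × Fin a)) = a * b := by
    simp only [Fintype.card_sum, Fintype.card_prod, Fintype.card_fin]
    have h3 : a % r + a / r * r = a := Nat.mod_add_div' a r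
    rw [h3, hs]
    ring
  let e := Fintype.equivFinOfCardEq hcard
  have h4 : Fixes (e.permCongr τ) a b := by
    have := fixes_permCongr e τ a (b' + s * r) hτF
    rwa [← hs] at this
  have h5 : (e.permCongr τ) ^ r = 1 := by
    have : e.permCongr τ = e.permCongrHom τ := rfl
    rw [this, ← map_pow, hτ, map_one]
  have h6 : nfix (e.permCongr τ) = nfix σ := by
    rw [nfix_permCongr, hτn, hw]
  exact fixes_of_isConj (isConj_of_nfix_eq hr h5 hσ h6) h4

theorem nfix_add_le {N r : ℕ} (hr : r.Prime) {σ : Equiv.Perm (Fin N)} (hσ : orderOf σ = r) :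
    nfix σ + r ≤ N := by
  have h1 : σ ^ r = 1 := by rw [← hσ]; exact pow_orderOf_eq_one σ
  have h2 := nfix_modEq hr h1
  rw [Fintype.card_fin] at h2
  have h3 : nfix σ ≤ N := by
    have := Nat.card_le_card_of_injective (fun x : {x : Fin N // σ x = x} => x.1)
      Subtype.val_injective
    simpa [nfix] using this
  have h4 : nfix σ ≠ N := by
    intro h
    have h5 : σ = 1 := by
      have hc : Nat.card {x : Fin N // σ x = x} = Nat.card (Fin N) := by
        rw [Nat.card_eq_fintype_card (α := Fin N), Fintype.card_fin]; exact h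
      have hbij : Function.Bijective (fun x : {x : Fin N // σ x = x} => x.1) :=
        (Nat.bijective_iff_injective_and_card _).2 ⟨Subtype.val_injective, hc⟩
      ext x
      obtain ⟨y, hy⟩ := hbij.2 x
      have := y.2
      rw [show (y : Fin N) = x from hy] at this
      rw [this]; rfl
    rw [h5, orderOf_one] at hσ
    exact hr.one_lt.ne hσ
  have h6 : r ∣ N - nfix σ := (Nat.modEq_iff_dvd' h3).1 h2
  have h7 := Nat.le_of_dvd (by omega) h6
  omega

/-- **the combinatorial core** -/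
theorem core_iff_cov (a b r : ℕ) (ha : 0 < a) (hr : r.Prime) :
    (∀ σ : Equiv.Perm (Fin (a * b)), orderOf σ = r → Fixes σ a b) ↔ Cov a b r := by
  constructor
  · intro h φ h1 h2
    obtain ⟨σ, hσ, hn⟩ := exists_perm_nfix (a * b) r φ hr h1 h2
    have h3 : σ ^ r = 1 := by rw [← hσ]; exact pow_orderOf_eq_one σ
    have := cond_of_fixes hr h3 ha (h σ hσ)
    rwa [hn] at this
  · intro h σ hσ
    have h3 : σ ^ r = 1 := by rw [← hσ]; exact pow_orderOf_eq_one σ
    have h4 := nfix_modEq hr h3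
    rw [Fintype.card_fin] at h4
    obtain ⟨b', hb, hbb, h1, h2⟩ := h (nfix σ) (nfix_add_le hr hσ) h4
    exact fixes_of_cond hr h3 hb hbb h1 h2

/-- **the arithmetic core** -/
theorem cov_iff (a b r : ℕ) (ha : 2 ≤ a) (hb : 2 ≤ b) (hr : 2 ≤ r) (hrab : r ≤ a * b) :
    Cov a b r ↔ (r ≤ a ∧ (a % r = 0 ∨ (b % r = 0 ∧ a % r = 1) ∨
        (a % r ≠ 0 ∧ b % r ≠ 0 ∧ (b % r) * (a % r) < r ∧
          (b < r ∨ (b % r + r) * (a % r) ≤ (b % r) * a + r)))) := by
  constructor
  · intro h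
    have hra : r ≤ a := by
      by_contra hlt
      exact not_cov_of_lt a b r ha hb (by omega) hrab h
    exact ⟨hra, cond_of_cov a b r ha hb hr hra h⟩
  · rintro ⟨hra, h | ⟨h1, h2⟩ | ⟨-, -, h3, h4 | h4⟩⟩
    · exact cov_of_mod_zero a b r h
    · exact cov_of_mod_one a b r hr hra h1 h2
    · exact cov_of_lt a b r hr h3 h4
    · exact cov_of_gap a b r hr hra h3 h4

theorem le_of_dvd_count (a b r : ℕ) (ha : 0 < a) (hr : r.Prime)
    (hrd : r ∣ (a * b).factorial / (a.factorial ^ b * b.factorial)) : r ≤ a * b := by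
  have h1 := Nat.div_dvd_of_dvd (factorial_pow_mul_dvd a b ha)
  exact (hr.dvd_factorial).1 (hrd.trans h1)

end Cfsg.Agent.Lib.Helper67.UPart
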